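import Mathlib
import Cfsg.Agent.S4381
import Cfsg.Agent.S0660
import Cfsg.Agent.Lib.Helper66.CoverUnique

/-!
# Coprime action on abelian `p`-groups: indecomposable actions (Gorenstein 5.2.2)
-/

set_option autoImplicit false

namespace Cfsg.Agent.Lib.Helper66

open Cfsg.Agent.S4381 (Inv)

section compl

variable {A : Type*} [CommGroup A] [Finite A] {p : ℕ} [Fact p.Prime]

/-- A "homocyclic of maximal exponent" subgroup of a finite abelian `p`-group is a direct factor. -/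
theorem exists_compl_of_pure (e : ℕ) (hexp : ∀ a : A, a ^ p ^ (e + 1) = 1) (D : Subgroup A)
    (hD : ∀ d ∈ D, d ^ p ^ e = 1 → ∃ d₁ ∈ D, d = d₁ ^ p) :
    ∃ C : Subgroup A, D ⊓ C = ⊥ ∧ D ⊔ C = ⊤ := by
  have hp : p.Prime := Fact.out
  have hne : {C : Subgroup A | D ⊓ C = ⊥}.Nonempty := ⟨⊥, inf_bot_eq D⟩
  obtain ⟨C, hC, hmax⟩ := (Set.toFinite {C : Subgroup A | D ⊓ C = ⊥}).exists_maximal hne
  have hC' : D ⊓ C = ⊥ := hC
  refine ⟨C, hC', ?_⟩
  by_contra htop
  obtain ⟨a₀, ha₀⟩ : ∃ a : A, a ∉ D ⊔ C := by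
    by_contra h
    push Not at h
    exact htop (eq_top_iff.mpr fun x _ => h x)
  -- an element outside whose `p`-th power is inside
  obtain ⟨a, ha, hap⟩ : ∃ a : A, a ∉ D ⊔ C ∧ a ^ p ∈ D ⊔ C := by
    have hex : ∃ k : ℕ, a₀ ^ p ^ k ∈ D ⊔ C := ⟨e + 1, by rw [hexp]; exact one_mem _⟩
    classical
    have hk0 : Nat.find hex ≠ 0 := by
      intro h0
      have := Nat.find_spec hex
      rw [h0, pow_zero, pow_one] at this
      exact ha₀ this
    obtain ⟨k, hk⟩ := Nat.exists_eq_succ_of_ne_zero hk0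
    refine ⟨a₀ ^ p ^ k, Nat.find_min hex (by omega), ?_⟩
    have := Nat.find_spec hex
    rw [hk, Nat.succ_eq_add_one, pow_succ, pow_mul] at this
    exact this
  obtain ⟨d, hd, c, hc, hdc⟩ := Subgroup.mem_sup.mp hap
  have h1 : d ^ p ^ e = 1 := by
    have h2 : d ^ p ^ e * c ^ p ^ e = 1 := by
      rw [← mul_pow, hdc, ← pow_mul, ← pow_succ', hexp]
    have h3 : d ^ p ^ e ∈ D ⊓ C := by
      refine ⟨D.pow_mem hd _, ?_⟩
      rw [eq_inv_of_mul_eq_one_left h2]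
      exact C.inv_mem (C.pow_mem hc _)
    rw [hC'] at h3
    exact Subgroup.mem_bot.mp h3
  obtain ⟨d₁, hd₁, rfl⟩ := hD d hd h1
  set a' := a * d₁⁻¹ with ha'
  have ha'p : a' ^ p = c := by
    rw [ha', mul_pow, ← hdc, inv_pow]
    rw [mul_comm (d₁ ^ p) c, mul_assoc, mul_inv_cancel, mul_one]
  have ha'n : a' ∉ D ⊔ C := by
    intro h
    apply ha
    have : a = a' * d₁ := by rw [ha', inv_mul_cancel_right]
    rw [this]
    exact (D ⊔ C).mul_mem h (Subgroup.mem_sup_left hd₁)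
  have hlt : ¬ (D ⊓ (C ⊔ Subgroup.zpowers a') = ⊥) := by
    intro h
    have hle := hmax (y := C ⊔ Subgroup.zpowers a') h le_sup_left
    apply ha'n
    exact Subgroup.mem_sup_right (hle (Subgroup.mem_sup_right (Subgroup.mem_zpowers a')))
  apply hlt
  rw [eq_bot_iff]
  rintro x ⟨hxD, hxC⟩
  obtain ⟨c', hc', y, hy, rfl⟩ := Subgroup.mem_sup.mp hxC
  obtain ⟨k, rfl⟩ := Subgroup.mem_zpowers_iff.mp hy
  by_cases hpk : (p : ℤ) ∣ k
  · obtain ⟨j, rfl⟩ := hpk
    have : a' ^ ((p : ℤ) * j) ∈ C := by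
      rw [zpow_mul, zpow_natCast, ha'p]
      exact C.zpow_mem hc j
    have h2 : c' * a' ^ ((p : ℤ) * j) ∈ D ⊓ C := ⟨hxD, C.mul_mem hc' this⟩
    rw [hC'] at h2
    exact h2
  · exfalso
    apply ha'n
    have hk1 : a' ^ k ∈ D ⊔ C := by
      have : a' ^ k = c'⁻¹ * (c' * a' ^ k) := by rw [inv_mul_cancel_left]
      rw [this]
      exact (D ⊔ C).mul_mem (Subgroup.mem_sup_right (C.inv_mem hc')) (Subgroup.mem_sup_left hxD)
    have hk2 : a' ^ k.natAbs ∈ D ⊔ C := by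
      rcases Int.natAbs_eq k with h | h
      · rw [← zpow_natCast, ← h]; exact hk1
      · have : a' ^ (k.natAbs : ℤ) = (a' ^ k)⁻¹ := by
          rw [← zpow_neg]; congr 1; omega
        rw [← zpow_natCast, this]
        exact (D ⊔ C).inv_mem hk1
    have hcop : Nat.Coprime k.natAbs p := by
      rw [Nat.coprime_comm, Nat.Prime.coprime_iff_not_dvd hp]
      intro h
      exact hpk (Int.natCast_dvd.mpr h)
    exact mem_of_pow_mem_of_coprime (D ⊔ C) hcop hk2
      (by rw [ha'p]; exact Subgroup.mem_sup_right hc)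

end compl

section action

set_option linter.unusedSectionVars false

variable {X A : Type*} [Group X] [Finite X] [CommGroup A] [Finite A] [MulDistribMulAction X A]
  {p : ℕ} [Fact p.Prime]

/-- the action on an invariant subgroup -/
@[reducible] def subAct (D : Subgroup A) (hD : Inv X D) : MulDistribMulAction X D where
  smul x d := ⟨x • (d : A), hD x d d.2⟩
  one_smul d := Subtype.ext (one_smul X (d : A))
  mul_smul x y d := Subtype.ext (mul_smul x y (d : A))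
  smul_mul x a b := Subtype.ext (smul_mul' x (a : A) b)
  smul_one x := Subtype.ext (smul_one x)

theorem inv_range_pow (k : ℕ) : Inv X (powMonoidHom k : A →* A).range := by
  rintro x _ ⟨a, rfl⟩
  exact ⟨x • a, by simp [smul_pow']⟩

theorem inv_comap_pow (k : ℕ) (S : Subgroup A) (hS : Inv X S) :
    Inv X (S.comap (powMonoidHom k : A →* A)) := by
  intro x a ha
  rw [Subgroup.mem_comap] at ha ⊢
  have := hS x _ ha
  simpa [smul_pow'] using this

/-- the key step: a minimal invariant subgroup `D` with `D ^ (p ^ e) = S` is "homocyclic". -/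
theorem pure_of_minimal (hA : IsPGroup p A) (hcop : (Nat.card X).Coprime p) (e : ℕ)
    (S D : Subgroup A) (hD : Inv X D) (hDS : D.map (powMonoidHom (p ^ e) : A →* A) = S)
    (hmin : ∀ W : Subgroup A, Inv X W → W.map (powMonoidHom (p ^ e) : A →* A) = S → W ≤ D → D ≤ W) :
    ∀ d ∈ D, d ^ p ^ e = 1 → ∃ d₁ ∈ D, d = d₁ ^ p := by
  have hDp : IsPGroup p D := hA.to_subgroup D
  obtain ⟨n, hn⟩ := IsPGroup.iff_card.mp hDp
  have hcopD : (Nat.card X).Coprime (Nat.card D) := by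
    rw [hn]; exact Nat.Coprime.pow_right n hcop
  set K : Subgroup D := ((powMonoidHom (p ^ e) : A →* A).ker).subgroupOf D with hK
  have hKinv : @Inv X D _ _ (subAct D hD) K := by
    intro x d hd
    rw [hK, Subgroup.mem_subgroupOf, MonoidHom.mem_ker] at hd ⊢
    change (powMonoidHom (p ^ e) : A →* A) (x • (d : A)) = 1
    have h1 : (d : A) ^ p ^ e = 1 := hd
    simp [← smul_pow', h1]
  obtain ⟨N₀, hN₀inv, -, hKN, hsup⟩ :=
    @Cfsg.Agent.S4381.exists_inv_compl X D _ _ (subAct D hD) _ _ p _ hDp hcopD K hKinv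
  -- `W = N₀` as a subgroup of `A`
  have hWinv : Inv X (N₀.map D.subtype) := by
    rintro x _ ⟨d, hd, rfl⟩
    exact ⟨_, hN₀inv x d hd, rfl⟩
  have hWS : (N₀.map D.subtype).map (powMonoidHom (p ^ e) : A →* A) = S := by
    apply le_antisymm
    · rw [← hDS]
      apply Subgroup.map_mono
      rintro _ ⟨d, -, rfl⟩
      exact d.2
    · rw [← hDS]
      rintro _ ⟨d, hd, rfl⟩
      have hmem : (⟨d, hd⟩ : D) ∈ K ⊔ N₀ := by rw [hsup]; trivial
      obtain ⟨k, hk, w, hw, hkw⟩ := Subgroup.mem_sup.mp hmem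
      refine ⟨(w : A), ⟨w, hw, rfl⟩, ?_⟩
      have h1 : d = (k : A) * (w : A) := by
        have := congrArg Subtype.val hkw
        exact this.symm
      have h2 : (powMonoidHom (p ^ e) : A →* A) (k : A) = 1 := hk
      rw [h1, map_mul, h2, one_mul]
  have hle : D ≤ N₀.map D.subtype := hmin _ hWinv hWS (by rintro _ ⟨d, -, rfl⟩; exact d.2)
  have hN₀top : N₀ = ⊤ := by
    rw [eq_top_iff]
    intro d _
    obtain ⟨d', hd', h⟩ := hle d.2
    have : d' = d := Subtype.ext h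
    rwa [← this]
  have hKΦ : K ≤ frattini D := by
    rw [hN₀top, inf_top_eq] at hKN
    exact hKN
  have hΦ : frattini D ≤ (powMonoidHom p : D →* D).range := by
    apply Cfsg.Agent.Lib.Helper2.frattini_le_of_elementary_quotient (p := p)
    · rw [commutator_eq_bot]
      exact bot_le
    · intro x
      exact ⟨x, rfl⟩
  intro d hd hde
  have hdK : (⟨d, hd⟩ : D) ∈ K := by
    rw [hK, Subgroup.mem_subgroupOf, MonoidHom.mem_ker]
    exact hde
  obtain ⟨d₁, hd₁⟩ := hΦ (hKΦ hdK)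
  refine ⟨d₁, d₁.2, ?_⟩
  have := congrArg Subtype.val hd₁
  exact this.symm

/-- (i) ⇒ (iii) -/
theorem omega_irreducible_of_indec (hA : IsPGroup p A) (hcop : (Nat.card X).Coprime p)
    (hind : ∀ B C : Subgroup A, Inv X B → Inv X C → B ⊓ C = ⊥ → B ⊔ C = ⊤ → B = ⊥ ∨ C = ⊥) :
    ∀ B : Subgroup A, Inv X B → (∀ b ∈ B, b ^ p = 1) → B = ⊥ ∨ ∀ a : A, a ∈ B ↔ a ^ p = 1 := by
  classical
  intro B hB hBp
  by_cases hB1 : B = ⊥
  · exact Or.inl hB1
  right
  obtain ⟨n, hn⟩ := IsPGroup.iff_card.mp hA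
  have hex : ∃ E : ℕ, ∀ a : A, a ^ p ^ E = 1 := ⟨n, fun a => by rw [← hn]; exact pow_card_eq_one'⟩
  have hE0 : Nat.find hex ≠ 0 := by
    intro h0
    have := Nat.find_spec hex
    rw [h0] at this
    apply hB1
    rw [eq_bot_iff]
    intro b _
    have := this b
    rw [pow_zero, pow_one] at this
    exact Subgroup.mem_bot.mpr this
  obtain ⟨e, he⟩ := Nat.exists_eq_succ_of_ne_zero hE0
  have hexp : ∀ a : A, a ^ p ^ (e + 1) = 1 := by
    have := Nat.find_spec hex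
    rwa [he] at this
  obtain ⟨a₀, ha₀⟩ : ∃ a : A, a ^ p ^ e ≠ 1 := by
    have := Nat.find_min hex (m := e) (by omega)
    push Not at this
    exact this
  set ψ : A →* A := powMonoidHom (p ^ e) with hψ
  -- a minimal invariant subgroup of the range of `ψ`
  have hne : {S : Subgroup A | Inv X S ∧ S ≠ ⊥ ∧ S ≤ ψ.range}.Nonempty := by
    refine ⟨ψ.range, inv_range_pow _, ?_, le_rfl⟩
    intro h
    apply ha₀
    have : ψ a₀ ∈ ψ.range := ⟨a₀, rfl⟩
    rw [h] at this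
    exact Subgroup.mem_bot.mp this
  obtain ⟨S, ⟨hSinv, hS1, hSle⟩, hSmin⟩ :=
    (Set.toFinite {S : Subgroup A | Inv X S ∧ S ≠ ⊥ ∧ S ≤ ψ.range}).exists_minimal hne
  have hne2 : {D : Subgroup A | Inv X D ∧ D.map ψ = S}.Nonempty := by
    refine ⟨S.comap ψ, inv_comap_pow _ S hSinv, ?_⟩
    rw [Subgroup.map_comap_eq, inf_eq_right.mpr hSle]
  obtain ⟨D, ⟨hDinv, hDS⟩, hDmin⟩ :=
    (Set.toFinite {D : Subgroup A | Inv X D ∧ D.map ψ = S}).exists_minimal hne2
  have hpure := pure_of_minimal hA hcop e S D hDinv hDS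
    (fun W hW hWS hWD => hDmin (y := W) ⟨hW, hWS⟩ hWD)
  obtain ⟨C₀, hC₀1, hC₀2⟩ := exists_compl_of_pure e hexp D hpure
  have := Fintype.ofFinite X
  obtain ⟨C, hCinv, hC1, hC2⟩ := Cfsg.Agent.S0660.abstract_maschke (V := A) (A := X) D C₀ hDinv
    (by
      rw [← Nat.card_eq_fintype_card, hn]
      exact Nat.Coprime.pow_right n hcop) hC₀1 hC₀2
  have hD1 : D ≠ ⊥ := by
    intro h
    apply hS1
    rw [← hDS, h, Subgroup.map_bot]
  have hCbot : C = ⊥ := (hind D C hDinv hCinv hC1 hC2).resolve_left hD1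
  have hDtop : D = ⊤ := by rw [← hC2, hCbot, sup_bot_eq]
  have hSrange : S = ψ.range := by
    rw [← hDS, hDtop, MonoidHom.range_eq_map]
  have hpure' : ∀ a : A, a ^ p ^ e = 1 → ∃ b : A, a = b ^ p := by
    intro a ha
    obtain ⟨b, -, hb⟩ := hpure a (by rw [hDtop]; trivial) ha
    exact ⟨b, hb⟩
  -- `Ω_{e+1-j}(A) ≤ A ^ (p ^ j)`
  have hstep : ∀ j : ℕ, j ≤ e → ∀ a : A, a ^ p ^ (e + 1 - j) = 1 → ∃ b : A, a = b ^ p ^ j := by
    intro j
    induction j with
    | zero => intro _ a _; exact ⟨a, by simp⟩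
    | succ j ih =>
      intro hj a ha
      have h1 : a ^ p ^ (e + 1 - j) = 1 := by
        have : e + 1 - j = (e + 1 - (j + 1)) + 1 := by omega
        rw [this, pow_succ, pow_mul, ha, one_pow]
      obtain ⟨b, rfl⟩ := ih (by omega) a h1
      have h2 : b ^ p ^ e = 1 := by
        have : e = j + (e + 1 - (j + 1)) := by omega
        rw [this, pow_add, pow_mul]
        exact ha
      obtain ⟨c, rfl⟩ := hpure' b h2
      exact ⟨c, by rw [← pow_mul, ← pow_succ']⟩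
  have hΩ : ∀ a : A, a ^ p = 1 → a ∈ S := by
    intro a ha
    obtain ⟨b, hb⟩ := hstep e le_rfl a (by
      have : e + 1 - e = 1 := by omega
      rw [this, pow_one]; exact ha)
    rw [hSrange]
    exact ⟨b, hb.symm⟩
  have hBS : B ≤ S := fun b hb => hΩ b (hBp b hb)
  have hSB : S ≤ B := hSmin (y := B) ⟨hB, hB1, hBS.trans hSle⟩ hBS
  intro a
  exact ⟨fun h => hBp a h, fun h => hSB (hΩ a h)⟩

omit [Finite X] in
/-- (iii) ⇒ (ii) -/
theorem omega_of_omega_irreducible (hA : IsPGroup p A)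
    (h3 : ∀ B : Subgroup A, Inv X B → (∀ b ∈ B, b ^ p = 1) → B = ⊥ ∨ ∀ a : A, a ∈ B ↔ a ^ p = 1) :
    ∀ B : Subgroup A, Inv X B → ∃ i : ℕ, ∀ a : A, a ∈ B ↔ a ^ p ^ i = 1 := by
  classical
  intro B hB
  obtain ⟨n, hn⟩ := IsPGroup.iff_card.mp hA
  have hex : ∃ E : ℕ, ∀ b ∈ B, b ^ p ^ E = 1 :=
    ⟨n, fun a _ => by rw [← hn]; exact pow_card_eq_one'⟩
  refine ⟨Nat.find hex, fun a => ⟨fun h => Nat.find_spec hex a h, ?_⟩⟩
  rcases Nat.eq_zero_or_pos (Nat.find hex) with h0 | hpos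
  · intro h
    rw [h0, pow_zero, pow_one] at h
    rw [h]; exact one_mem B
  obtain ⟨i, hi⟩ := Nat.exists_eq_succ_of_ne_zero hpos.ne'
  rw [hi]
  have hexp : ∀ b ∈ B, b ^ p ^ (i + 1) = 1 := by
    have := Nat.find_spec hex
    rwa [hi] at this
  obtain ⟨b₀, hb₀B, hb₀⟩ : ∃ b ∈ B, b ^ p ^ i ≠ 1 := by
    have := Nat.find_min hex (m := i) (by omega)
    push Not at this
    exact this
  set B₁ : Subgroup A := B.map (powMonoidHom (p ^ i) : A →* A) with hB₁
  have hB₁inv : Inv X B₁ := by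
    rintro x _ ⟨b, hb, rfl⟩
    exact ⟨x • b, hB x b hb, by simp [smul_pow']⟩
  have hB₁p : ∀ b ∈ B₁, b ^ p = 1 := by
    rintro _ ⟨b, hb, rfl⟩
    change (b ^ p ^ i) ^ p = 1
    rw [← pow_mul, ← pow_succ]
    exact hexp b hb
  have hB₁ne : B₁ ≠ ⊥ := by
    intro h
    apply hb₀
    have : (powMonoidHom (p ^ i) : A →* A) b₀ ∈ B₁ := ⟨b₀, hb₀B, rfl⟩
    rw [h] at this
    exact Subgroup.mem_bot.mp this
  have hΩ := (h3 B₁ hB₁inv hB₁p).resolve_left hB₁ne
  have key : ∀ k : ℕ, k ≤ i + 1 → ∀ a : A, a ^ p ^ k = 1 → a ∈ B := by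
    intro k
    induction k with
    | zero =>
      intro _ a ha
      rw [pow_zero, pow_one] at ha
      rw [ha]; exact one_mem B
    | succ k ih =>
      intro hk a ha
      have h1 : a ^ p ^ k ∈ B₁ := by
        rw [hΩ, ← pow_mul, ← pow_succ]
        exact ha
      obtain ⟨b, hb, hba⟩ := h1
      have hba' : b ^ p ^ i = a ^ p ^ k := hba
      have h2 : (a * (b ^ p ^ (i - k))⁻¹) ^ p ^ k = 1 := by
        rw [mul_pow, inv_pow, ← pow_mul, ← pow_add, Nat.sub_add_cancel (by omega), hba',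
          mul_inv_cancel]
      have h3 := ih (by omega) _ h2
      have : a = (a * (b ^ p ^ (i - k))⁻¹) * b ^ p ^ (i - k) := by rw [inv_mul_cancel_right]
      rw [this]
      exact B.mul_mem h3 (B.pow_mem hb _)
  exact key (i + 1) le_rfl a

omit [Finite X] [Finite A] in
/-- (ii) ⇒ (iii) -/
theorem omega_irreducible_of_omega
    (h2 : ∀ B : Subgroup A, Inv X B → ∃ i : ℕ, ∀ a : A, a ∈ B ↔ a ^ p ^ i = 1) :
    ∀ B : Subgroup A, Inv X B → (∀ b ∈ B, b ^ p = 1) → B = ⊥ ∨ ∀ a : A, a ∈ B ↔ a ^ p = 1 := by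
  intro B hB hBp
  obtain ⟨i, hi⟩ := h2 B hB
  rcases Nat.eq_zero_or_pos i with h0 | hpos
  · left
    rw [eq_bot_iff]
    intro b hb
    have := (hi b).mp hb
    rw [h0, pow_zero, pow_one] at this
    exact Subgroup.mem_bot.mpr this
  · right
    intro a
    refine ⟨hBp a, fun h => (hi a).mpr ?_⟩
    obtain ⟨j, rfl⟩ := Nat.exists_eq_succ_of_ne_zero hpos.ne'
    rw [Nat.succ_eq_add_one, pow_succ', pow_mul, h, one_pow]

omit [Finite X] in
/-- (iii) ⇒ (i) -/
theorem indec_of_omega_irreducible (hA : IsPGroup p A)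
    (h3 : ∀ B : Subgroup A, Inv X B → (∀ b ∈ B, b ^ p = 1) → B = ⊥ ∨ ∀ a : A, a ∈ B ↔ a ^ p = 1) :
    ∀ B C : Subgroup A, Inv X B → Inv X C → B ⊓ C = ⊥ → B ⊔ C = ⊤ → B = ⊥ ∨ C = ⊥ := by
  intro B C hB hC hBC _
  by_contra hcon
  push Not at hcon
  obtain ⟨hB1, hC1⟩ := hcon
  have hp : p.Prime := Fact.out
  -- elements of order `p`
  have hel : ∀ E : Subgroup A, E ≠ ⊥ → ∃ x ∈ E, x ≠ 1 ∧ x ^ p = 1 := by
    intro E hE
    have hEp : IsPGroup p E := hA.to_subgroup E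
    obtain ⟨n, hn⟩ := IsPGroup.iff_card.mp hEp
    have hn0 : n ≠ 0 := by
      rintro rfl
      rw [pow_zero] at hn
      exact hE (Subgroup.card_eq_one.mp hn)
    have hdvd : p ∣ Nat.card E := by rw [hn]; exact dvd_pow_self p hn0
    obtain ⟨x, hx⟩ := exists_prime_orderOf_dvd_card' p hdvd
    refine ⟨x, x.2, ?_, ?_⟩
    · intro h
      have : x = 1 := Subtype.ext h
      rw [this, orderOf_one] at hx
      exact hp.one_lt.ne hx
    · have := pow_orderOf_eq_one x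
      rw [hx] at this
      exact congrArg Subtype.val this
  set B₁ : Subgroup A := B ⊓ (powMonoidHom p : A →* A).ker with hB₁
  have hB₁inv : Inv X B₁ := by
    rintro x b ⟨hb1, hb2⟩
    refine ⟨hB x b hb1, ?_⟩
    have h1 : b ^ p = 1 := hb2
    change (x • b) ^ p = 1
    rw [← smul_pow', h1, smul_one]
  obtain ⟨b, hbB, hb1, hbp⟩ := hel B hB1
  obtain ⟨c, hcC, hc1, hcp⟩ := hel C hC1
  have hB₁ne : B₁ ≠ ⊥ := by
    intro h
    apply hb1
    have : b ∈ B₁ := ⟨hbB, hbp⟩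
    rw [h] at this
    exact Subgroup.mem_bot.mp this
  have hΩ := (h3 B₁ hB₁inv (fun b hb => hb.2)).resolve_left hB₁ne
  have hcB : c ∈ B₁ := (hΩ c).mpr hcp
  apply hc1
  have : c ∈ B ⊓ C := ⟨hcB.1, hcC⟩
  rw [hBC] at this
  exact Subgroup.mem_bot.mp this

end action

end Cfsg.Agent.Lib.Helper66
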