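import Mathlib

/-!
# A central extension of the alternating group inside a Clifford algebra

`Cl = CliffordAlgebra (x₁² + … + xₙ²)` over `ℚ`.  The group `XA n` of pairs `(x, σ)` with
`x` a unit of `Cl`, `σ ∈ Aₙ` and `x eᵢ = e_{σ i} x` is a central extension of `Aₙ`, and
`(-1, 1)` is a commutator in it when `n ≥ 4`.
-/

set_option autoImplicit false
set_option linter.unusedSectionVars false

namespace Cfsg.Agent.Lib.Helper66.AltClifford

open Equiv Equiv.Perm
open scoped commutatorElement

section abstract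

variable {R : Type*} [Ring R] [Algebra ℚ R] {ι : Type*} [DecidableEq ι] (E : ι → R)

theorem sub_sq_eq_two (hsq : ∀ i, E i * E i = 1) (hanti : ∀ i j, i ≠ j → E i * E j = -(E j * E i))
    {a b : ι} (hab : a ≠ b) : (E a - E b) * (E a - E b) = 1 + 1 := by
  rw [sub_mul, mul_sub, mul_sub, hsq, hsq, hanti b a hab.symm]
  abel

/-- the unit `e_a - e_b`. -/
def U (hsq : ∀ i, E i * E i = 1) (hanti : ∀ i j, i ≠ j → E i * E j = -(E j * E i))
    {a b : ι} (hab : a ≠ b) : Rˣ where
  val := E a - E b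
  inv := (1 / 2 : ℚ) • (E a - E b)
  val_inv := by
    rw [mul_smul_comm, sub_sq_eq_two E hsq hanti hab, smul_add, ← add_smul]
    norm_num
  inv_val := by
    rw [smul_mul_assoc, sub_sq_eq_two E hsq hanti hab, smul_add, ← add_smul]
    norm_num

theorem U_mul (hsq : ∀ i, E i * E i = 1) (hanti : ∀ i j, i ≠ j → E i * E j = -(E j * E i))
    {a b : ι} (hab : a ≠ b) (i : ι) :
    (E a - E b) * E i = -(E (swap a b i) * (E a - E b)) := by
  by_cases hia : i = a
  · subst hia
    rw [swap_apply_left, sub_mul, mul_sub, hsq, hsq]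
    abel
  · by_cases hib : i = b
    · subst hib
      rw [swap_apply_right, sub_mul, mul_sub, hsq, hsq]
      abel
    · rw [swap_apply_of_ne_of_ne hia hib, sub_mul, mul_sub, hanti a i (Ne.symm hia),
        hanti b i (Ne.symm hib)]
      abel

theorem exists_unit (hsq : ∀ i, E i * E i = 1)
    (hanti : ∀ i j, i ≠ j → E i * E j = -(E j * E i)) [Fintype ι] (σ : Perm ι) :
    ∃ x : Rˣ, (sign σ = 1 ∧ ∀ i, (x : R) * E i = E (σ i) * x) ∨
      (sign σ = -1 ∧ ∀ i, (x : R) * E i = -(E (σ i) * x)) := by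
  induction σ using swap_induction_on with
  | one => exact ⟨1, Or.inl ⟨by simp, by simp⟩⟩
  | swap_mul f a b hab ih =>
    obtain ⟨x, hx⟩ := ih
    refine ⟨U E hsq hanti hab * x, ?_⟩
    have hU : ((U E hsq hanti hab : Rˣ) : R) = E a - E b := rfl
    rcases hx with ⟨hs, hx⟩ | ⟨hs, hx⟩
    · right
      refine ⟨by rw [Perm.sign_mul, sign_swap hab, hs]; rfl, fun i => ?_⟩
      rw [Units.val_mul, hU, mul_assoc, hx, ← mul_assoc, U_mul E hsq hanti hab, Perm.mul_apply]
      noncomm_ring
    · left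
      refine ⟨by rw [Perm.sign_mul, sign_swap hab, hs]; rfl, fun i => ?_⟩
      rw [Units.val_mul, hU, mul_assoc, hx, mul_neg, ← mul_assoc, U_mul E hsq hanti hab,
        Perm.mul_apply]
      noncomm_ring

/-- The group of pairs `(x, σ)`, `σ` even, with `x eᵢ = e_{σ i} x`. -/
def XA [Fintype ι] : Subgroup (Rˣ × alternatingGroup ι) where
  carrier := {p | ∀ i, (p.1 : R) * E i = E ((p.2 : Perm ι) i) * p.1}
  one_mem' := by intro i; simp
  mul_mem' := by
    intro p q hp hq i
    have h1 := hq i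
    have h2 := hp ((q.2 : Perm ι) i)
    simp only [Prod.fst_mul, Prod.snd_mul, Units.val_mul, Subgroup.coe_mul, Perm.mul_apply]
    rw [mul_assoc, h1, ← mul_assoc, h2, mul_assoc]
  inv_mem' := by
    intro p hp i
    have h1 := hp ((p.2 : Perm ι)⁻¹ i)
    simp only [Prod.fst_inv, Prod.snd_inv, Subgroup.coe_inv]
    have h0 : (p.2 : Perm ι) ((p.2 : Perm ι)⁻¹ i) = i := by simp
    rw [h0] at h1
    calc ((p.1⁻¹ : Rˣ) : R) * E i = ((p.1⁻¹ : Rˣ) : R) * (E i * p.1) * ((p.1⁻¹ : Rˣ) : R) := by
          rw [mul_assoc, mul_assoc, Units.mul_inv, mul_one]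
      _ = ((p.1⁻¹ : Rˣ) : R) * ((p.1 : R) * E ((p.2 : Perm ι)⁻¹ i)) * ((p.1⁻¹ : Rˣ) : R) := by
          rw [h1]
      _ = E ((p.2 : Perm ι)⁻¹ i) * ((p.1⁻¹ : Rˣ) : R) := by
          rw [← mul_assoc, Units.inv_mul, one_mul]

theorem mem_XA [Fintype ι] {p : Rˣ × alternatingGroup ι} :
    p ∈ XA E ↔ ∀ i, (p.1 : R) * E i = E ((p.2 : Perm ι) i) * p.1 := Iff.rfl

/-- the projection to the alternating group. -/
def ξ [Fintype ι] : XA E →* alternatingGroup ι := (MonoidHom.snd _ _).comp (XA E).subtype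

theorem ξ_surjective [Fintype ι] (hsq : ∀ i, E i * E i = 1)
    (hanti : ∀ i j, i ≠ j → E i * E j = -(E j * E i)) : Function.Surjective (ξ E) := by
  intro σ
  obtain ⟨x, hx⟩ := exists_unit E hsq hanti (σ : Perm ι)
  have hσ : sign (σ : Perm ι) = 1 := mem_alternatingGroup.mp σ.2
  rcases hx with ⟨-, hx⟩ | ⟨hs, -⟩
  · exact ⟨⟨(x, σ), hx⟩, rfl⟩
  · rw [hσ] at hs
    exact absurd hs (by decide)

theorem ker_ξ_le_center [Fintype ι]
    (hgen : ∀ c : R, (∀ i, c * E i = E i * c) → ∀ x : R, c * x = x * c) :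
    (ξ E).ker ≤ Subgroup.center (XA E) := by
  rintro ⟨⟨c, σ⟩, hc⟩ hker
  have hσ : σ = 1 := hker
  subst hσ
  have hc' : ∀ i, (c : R) * E i = E i * c := by
    intro i
    simpa using hc i
  rw [Subgroup.mem_center_iff]
  rintro ⟨⟨x, τ⟩, hx⟩
  apply Subtype.ext
  apply Prod.ext
  · apply Units.ext
    exact (hgen c hc' x).symm
  · simp

/-- the element `(-1, 1)`. -/
def negOne [Fintype ι] : XA E := ⟨(-1, 1), by intro i; simp⟩

theorem negOne_mem_ker [Fintype ι] : negOne E ∈ (ξ E).ker := rfl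

theorem orderOf_negOne [Fintype ι] [Nontrivial R] : orderOf (negOne E) = 2 := by
  apply orderOf_eq_prime
  · apply Subtype.ext
    apply Prod.ext
    · simp [negOne]
    · simp [negOne]
  · intro h
    have h1 : ((-1 : Rˣ) : R) = 1 := by
      have := congrArg (fun p : XA E => ((p : Rˣ × alternatingGroup ι).1 : R)) h
      simpa [negOne] using this
    have h2 : (1 : R) + 1 = 0 := by
      rw [Units.val_neg, Units.val_one] at h1
      nth_rewrite 1 [← h1]
      simp
    have h3 : (1 : R) = 0 := by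
      calc (1 : R) = (1 / 2 : ℚ) • ((1 : R) + 1) := by
            rw [smul_add, ← add_smul]; norm_num
        _ = 0 := by rw [h2, smul_zero]
    exact one_ne_zero h3

theorem negOne_mem_commutator [Fintype ι] (hsq : ∀ i, E i * E i = 1)
    (hanti : ∀ i j, i ≠ j → E i * E j = -(E j * E i)) {a b c d : ι} (hnd : [a, b, c, d].Nodup) :
    negOne E ∈ commutator (XA E) := by
  have hab : a ≠ b := by simp at hnd; tauto
  have hac : a ≠ c := by simp at hnd; tauto
  have had : a ≠ d := by simp at hnd; tauto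
  have hbc : b ≠ c := by simp at hnd; tauto
  have hbd : b ≠ d := by simp at hnd; tauto
  have hcd : c ≠ d := by simp at hnd; tauto
  -- the two commuting even involutions
  obtain ⟨ρ, hρ⟩ : ∃ ρ : alternatingGroup ι, (ρ : Perm ι) = swap a b * swap c d :=
    ⟨⟨swap a b * swap c d, by
      rw [mem_alternatingGroup, Perm.sign_mul, sign_swap hab, sign_swap hcd]; rfl⟩, rfl⟩
  obtain ⟨τ, hτ⟩ : ∃ τ : alternatingGroup ι, (τ : Perm ι) = swap a c * swap b d :=
    ⟨⟨swap a c * swap b d, by
      rw [mem_alternatingGroup, Perm.sign_mul, sign_swap hac, sign_swap hbd]; rfl⟩, rfl⟩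
  have hτa : (τ : Perm ι) a = c := by
    rw [hτ, Perm.mul_apply, swap_apply_of_ne_of_ne hab had, swap_apply_left]
  have hτb : (τ : Perm ι) b = d := by
    rw [hτ, Perm.mul_apply, swap_apply_left, swap_apply_of_ne_of_ne had.symm hcd.symm]
  have hτc : (τ : Perm ι) c = a := by
    rw [hτ, Perm.mul_apply, swap_apply_of_ne_of_ne hbc.symm hcd, swap_apply_right]
  have hτd : (τ : Perm ι) d = b := by
    rw [hτ, Perm.mul_apply, swap_apply_right, swap_apply_of_ne_of_ne hab.symm hbc]
  have hcomm : τ * ρ = ρ * τ := by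
    apply Subtype.ext
    rw [Subgroup.coe_mul, Subgroup.coe_mul, hρ, ← mul_assoc, mul_swap_eq_swap_mul (τ : Perm ι) a b,
      mul_assoc, mul_swap_eq_swap_mul (τ : Perm ι) c d, hτa, hτb, hτc, hτd, ← mul_assoc]
    congr 1
    exact (disjoint_swap_swap (by simp; tauto)).commute
  obtain ⟨y, hy⟩ := ξ_surjective E hsq hanti τ
  obtain ⟨⟨y1, y2⟩, hymem⟩ := y
  have hy2 : y2 = τ := hy
  subst hy2
  have hUab : ((U E hsq hanti hab : Rˣ) : R) = E a - E b := rfl
  have hUcd : ((U E hsq hanti hcd : Rˣ) : R) = E c - E d := rfl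
  have hxmem : (U E hsq hanti hab * U E hsq hanti hcd, ρ) ∈ XA E := by
    intro i
    simp only [Units.val_mul]
    rw [hUab, hUcd, hρ, mul_assoc, U_mul E hsq hanti hcd, mul_neg, ← mul_assoc,
      U_mul E hsq hanti hab, Perm.mul_apply]
    noncomm_ring
  have hkey : (y1 : R) * ((E a - E b) * (E c - E d)) = -((E a - E b) * (E c - E d) * y1) := by
    have h1 : (y1 : R) * (E a - E b) = (E c - E d) * y1 := by
      rw [mul_sub, sub_mul, hymem a, hymem b]
      simp only [hτa, hτb]
    have h2 : (y1 : R) * (E c - E d) = (E a - E b) * y1 := by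
      rw [mul_sub, sub_mul, hymem c, hymem d]
      simp only [hτc, hτd]
    have h3 : (E c - E d) * (E a - E b) = -((E a - E b) * (E c - E d)) := by
      rw [sub_mul, mul_sub, mul_sub, sub_mul, mul_sub, mul_sub, hanti c a hac.symm,
        hanti c b hbc.symm, hanti d a had.symm, hanti d b hbd.symm]
      abel
    rw [← mul_assoc, h1, mul_assoc, h2, ← mul_assoc, h3, neg_mul]
  have hw : negOne E = ⁅(⟨(y1, y2), hymem⟩ : XA E),
      (⟨(U E hsq hanti hab * U E hsq hanti hcd, ρ), hxmem⟩ : XA E)⁆ := by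
    rw [commutatorElement_def, eq_mul_inv_iff_mul_eq, eq_mul_inv_iff_mul_eq]
    apply Subtype.ext
    apply Prod.ext
    · apply Units.ext
      simp only [negOne, Subgroup.coe_mul, Prod.fst_mul, Units.val_mul, Units.val_neg,
        Units.val_one]
      rw [hUab, hUcd, hkey]
      noncomm_ring
    · simp only [negOne, Subgroup.coe_mul, Prod.snd_mul, one_mul]
      exact hcomm.symm
  rw [hw, commutator_def]
  exact Subgroup.commutator_mem_commutator (Subgroup.mem_top _) (Subgroup.mem_top _)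

end abstract

section concrete

variable (n : ℕ)

/-- the standard quadratic form on `ℚⁿ`. -/
noncomputable def Qn : QuadraticForm ℚ (Fin n → ℚ) :=
  QuadraticMap.weightedSumSquares ℚ (fun _ : Fin n => (1 : ℚ))

/-- the standard generators of the Clifford algebra. -/
noncomputable def e (i : Fin n) : CliffordAlgebra (Qn n) :=
  CliffordAlgebra.ι (Qn n) (Pi.single i 1)

theorem e_sq (i : Fin n) : e n i * e n i = 1 := by
  rw [e, CliffordAlgebra.ι_sq_scalar]
  have : Qn n (Pi.single i 1) = 1 := by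
    simp [Qn, QuadraticMap.weightedSumSquares_apply, Pi.single_apply]
  rw [this, map_one]

theorem e_anti (i j : Fin n) (h : i ≠ j) : e n i * e n j = -(e n j * e n i) := by
  apply CliffordAlgebra.ι_mul_ι_comm_of_isOrtho
  rw [QuadraticMap.isOrtho_def]
  simp [Qn, QuadraticMap.weightedSumSquares_apply, Pi.single_apply, add_mul, mul_add,
    Finset.sum_add_distrib, h, h.symm]

theorem e_gen (c : CliffordAlgebra (Qn n)) (hc : ∀ i, c * e n i = e n i * c)
    (x : CliffordAlgebra (Qn n)) : c * x = x * c := by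
  have h1 : ∀ v : Fin n → ℚ, c * CliffordAlgebra.ι (Qn n) v = CliffordAlgebra.ι (Qn n) v * c := by
    have h2 : (LinearMap.mulLeft ℚ c).comp (CliffordAlgebra.ι (Qn n)) =
        (LinearMap.mulRight ℚ c).comp (CliffordAlgebra.ι (Qn n)) := by
      apply LinearMap.pi_ext
      intro i t
      have h3 : (Pi.single i t : Fin n → ℚ) = t • Pi.single i 1 := by
        rw [← Pi.single_smul, smul_eq_mul, mul_one]
      simp only [LinearMap.comp_apply, LinearMap.mulLeft_apply, LinearMap.mulRight_apply]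
      rw [h3, map_smul, mul_smul_comm, smul_mul_assoc]
      congr 1
      exact hc i
    intro v
    exact LinearMap.congr_fun h2 v
  have h4 : Algebra.adjoin ℚ (Set.range (CliffordAlgebra.ι (Qn n))) ≤
      Subalgebra.centralizer ℚ {c} := by
    apply Algebra.adjoin_le
    rintro _ ⟨v, rfl⟩
    rw [SetLike.mem_coe, Subalgebra.mem_centralizer_iff]
    intro g hg
    rw [Set.mem_singleton_iff] at hg
    subst hg
    exact h1 v
  rw [CliffordAlgebra.adjoin_range_ι] at h4
  have h5 := h4 (Algebra.mem_top (x := x))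
  rw [Subalgebra.mem_centralizer_iff] at h5
  exact h5 c rfl

/-- **Summary.**  For `n ≥ 4` there is a central extension of `Aₙ` with an element of order `2`
in the intersection of the kernel and the commutator subgroup. -/
theorem exists_central_extension (hn : 4 ≤ n) :
    ∃ (X : Type) (_ : Group X) (ξ : X →* alternatingGroup (Fin n)), Function.Surjective ξ ∧
      ξ.ker ≤ Subgroup.center X ∧ ∃ w : X, w ∈ ξ.ker ∧ w ∈ commutator X ∧ orderOf w = 2 := by
  refine ⟨XA (e n), inferInstance, ξ (e n), ξ_surjective _ (e_sq n) (e_anti n),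
    ker_ξ_le_center _ (e_gen n), negOne (e n), negOne_mem_ker _, ?_, orderOf_negOne _⟩
  apply negOne_mem_commutator _ (e_sq n) (e_anti n)
    (a := ⟨0, by omega⟩) (b := ⟨1, by omega⟩) (c := ⟨2, by omega⟩) (d := ⟨3, by omega⟩)
  simp

end concrete

end Cfsg.Agent.Lib.Helper66.AltClifford
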