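import Mathlib
import Cfsg.Agent.Lib.Helper54.Dihedral
import Cfsg.Agent.S0051

/-!
# Involutions in double covers of small alternating groups
-/

set_option autoImplicit false

namespace Cfsg.Agent.Lib.Helper66.AltInvol

open Equiv Equiv.Perm

theorem cycleType_of_even_involution {n : ℕ} (hn : n ≤ 7) (t : Perm (Fin n)) (h1 : t ≠ 1)
    (h2 : t * t = 1) (hs : sign t = 1) : t.cycleType = {2, 2} ∧ 4 ≤ n := by
  have ho : orderOf t = 2 := orderOf_eq_prime (by rw [sq]; exact h2) h1
  obtain ⟨k, hk⟩ := cycleType_prime_order (σ := t) (by rw [ho]; exact Nat.prime_two)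
  rw [ho] at hk
  have hsum : t.cycleType.sum ≤ n := by
    have := sum_cycleType_le t
    simpa using this
  rw [hk, Multiset.sum_replicate, smul_eq_mul] at hsum
  have hsign := sign_of_cycleType t
  rw [hk, hs, Multiset.sum_replicate, Multiset.card_replicate, smul_eq_mul] at hsign
  have hk2 : k ≤ 2 := by omega
  interval_cases k
  · exact absurd hsign (by decide)
  · exact ⟨hk, by omega⟩
  · exact absurd hsign (by decide)

theorem exists_even_conj {n : ℕ} (s t : Perm (Fin n)) (hst : s.cycleType = t.cycleType)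
    (h1 : t ≠ 1) (h2 : t * t = 1) : ∃ g : Perm (Fin n), sign g = 1 ∧ g * t * g⁻¹ = s := by
  obtain ⟨g, hg⟩ := isConj_iff.mp (isConj_iff_cycleType_eq.mpr hst.symm)
  rcases Int.units_eq_one_or (sign g) with h | h
  · exact ⟨g, h, hg⟩
  · obtain ⟨a, ha⟩ : ∃ a, t a ≠ a := by
      by_contra hcon
      push Not at hcon
      exact h1 (Equiv.ext hcon)
    have hta : t (t a) = a := by
      have := congrArg (fun f : Perm (Fin n) => f a) h2
      simpa using this
    have hc : t * swap a (t a) = swap a (t a) * t := by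
      rw [mul_swap_eq_swap_mul, hta, swap_comm]
    refine ⟨g * swap a (t a), by rw [Perm.sign_mul, h, sign_swap ha.symm]; rfl, ?_⟩
    rw [mul_inv_rev, swap_inv, ← hg]
    calc g * swap a (t a) * t * (swap a (t a) * g⁻¹)
        = g * (swap a (t a) * t) * swap a (t a) * g⁻¹ := by group
      _ = g * (t * swap a (t a)) * swap a (t a) * g⁻¹ := by rw [hc]
      _ = g * t * (swap a (t a) * swap a (t a)) * g⁻¹ := by group
      _ = g * t * g⁻¹ := by rw [swap_mul_self, mul_one]

open Cfsg.Agent.Lib.Helper54 in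
/-- a dihedral section. -/
theorem exists_dihedral_section {H K : Type*} [Group H] [Group K] (π : H →* K) (m : ℕ) (hm : 0 < m)
    (s t : H) (hs : s * s = 1) (ht : t * t = 1) (hst : (s * t) ^ m = 1)
    (ho : orderOf (π (s * t)) = m) (hnot : π s ∉ Subgroup.zpowers (π (s * t))) :
    ∃ A : Subgroup H, Nat.card A = 2 * m ∧ A ⊓ π.ker = ⊥ := by
  have hmz : NeZero m := ⟨hm.ne'⟩
  have ha : orderOf (s * t) = m := by
    apply Nat.dvd_antisymm (orderOf_dvd_of_pow_eq_one hst)
    rw [← ho]
    exact orderOf_map_dvd π _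
  have hsi : s⁻¹ = s := inv_eq_of_mul_eq_one_left hs
  have hti : t⁻¹ = t := inv_eq_of_mul_eq_one_left ht
  have hax : s * (s * t) * s⁻¹ = (s * t)⁻¹ := by
    rw [mul_inv_rev, hsi, hti, ← mul_assoc, hs, one_mul]
  obtain ⟨f, hf⟩ : ∃ f : DihedralGroup m →* H, ∀ u, f u = dihedralMap (s * t) s u :=
    ⟨MonoidHom.mk' (dihedralMap (s * t) s) (dihedralMap_mul (s * t) s ha hs hax), fun _ => rfl⟩
  have hinj : ∀ u, π (f u) = 1 → u = 1 := by
    intro u hu
    rw [hf] at hu
    rcases u with i | i
    · change π ((s * t) ^ i.val) = 1 at hu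
      rw [map_pow] at hu
      have h1 : orderOf (π (s * t)) ∣ i.val := orderOf_dvd_of_pow_eq_one hu
      rw [ho] at h1
      have h2 : i.val = 0 := Nat.eq_zero_of_dvd_of_lt h1 (ZMod.val_lt i)
      rw [ZMod.val_eq_zero] at h2
      rw [h2]; rfl
    · exfalso
      change π (s * (s * t) ^ i.val) = 1 at hu
      rw [map_mul, map_pow] at hu
      apply hnot
      rw [eq_inv_of_mul_eq_one_left hu]
      exact Subgroup.inv_mem _ (Subgroup.pow_mem _ (Subgroup.mem_zpowers _) _)
  have hfinj : Function.Injective f := by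
    rw [injective_iff_map_eq_one]
    intro u hu
    exact hinj u (by rw [hu, map_one])
  refine ⟨f.range, ?_, ?_⟩
  · rw [← Nat.card_congr (MonoidHom.ofInjective hfinj).toEquiv, DihedralGroup.nat_card]
  · rw [eq_bot_iff]
    rintro _ ⟨⟨u, rfl⟩, hu⟩
    rw [Subgroup.mem_bot, hinj u hu, map_one]

/-- the core splitting argument. -/
theorem exists_complement {H : Type*} [Group H] [Finite H] {n : ℕ} (π : H →* Perm (Fin n))
    (hker : π.ker = Subgroup.center H) (hZ : Nat.card (Subgroup.center H) = 2)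
    (hstar : ∀ y : H, π y * π y = 1 → y * y = 1) (k j : ℕ) (hk : 0 < k)
    (hcard : Nat.card H = 2 * (2 * (2 * k)) * j) (hj : ¬ 2 ∣ j)
    (s t : H) (hs : π s * π s = 1) (ht : π t * π t = 1) (ho : orderOf (π (s * t)) = 2 * k)
    (hnot : π s ∉ Subgroup.zpowers (π (s * t))) :
    ∃ L : Subgroup H, (Subgroup.center H).IsComplement' L := by
  have hst : (s * t) ^ (2 * k) = 1 := by
    have h1 : (s * t) ^ k * (s * t) ^ k = 1 := by
      apply hstar
      rw [← map_mul, ← pow_add, ← two_mul, map_pow, ← ho, pow_orderOf_eq_one]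
    rw [two_mul, pow_add, h1]
  obtain ⟨A, hA1, hA2⟩ := exists_dihedral_section π (2 * k) (by omega) s t (hstar s hs)
    (hstar t ht) hst ho hnot
  rw [hker] at hA2
  have hU : Nat.card ↥(Subgroup.center H ⊔ A) = 2 * (2 * (2 * k)) := by
    have h1 := Subgroup.relIndex_mul_relIndex ⊥ (Subgroup.center H) (Subgroup.center H ⊔ A) bot_le
      le_sup_left
    rw [Subgroup.relIndex_bot_left, Subgroup.relIndex_bot_left,
      Subgroup.relIndex_sup_left, ← Subgroup.inf_relIndex_right, inf_comm, hA2,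
      Subgroup.relIndex_bot_left, hA1, hZ] at h1
    exact h1.symm
  have hidx : (Subgroup.center H ⊔ A).index = j := by
    have h1 := (Subgroup.center H ⊔ A).card_mul_index
    rw [hU, hcard] at h1
    exact Nat.eq_of_mul_eq_mul_left (by omega) h1
  exact Cfsg.Agent.S0051.result (Subgroup.center H) (Subgroup.center H ⊔ A) le_sup_left
    (by rw [hZ, hidx]; exact (Nat.Prime.coprime_iff_not_dvd Nat.prime_two).mpr hj) A le_sup_right hA2 rfl

end Cfsg.Agent.Lib.Helper66.AltInvol
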