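import Mathlib
import Cfsg.Agent.Lib.Helper66.Hopf

/-!
# Double covers from central extensions

If some central extension `X → G` of a finite group `G` has an element of order `2` in
`ker ∩ X'`, then `G` has a finite stem extension with kernel of order `2`.
-/

set_option autoImplicit false

namespace Cfsg.Agent.Lib.Helper66

universe u v

theorem exists_index_two_aux : ∀ (k : ℕ) (M : Type u) [CommGroup M] [Finite M],
    Nat.card M = k → 2 ∣ k → ∃ N : Subgroup M, N.index = 2 := by
  intro k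
  induction k using Nat.strong_induction_on with
  | _ k ih =>
    intro M _ _ hk h2
    by_cases hk2 : k = 2
    · exact ⟨⊥, by rw [Subgroup.index_bot, hk, hk2]⟩
    · obtain ⟨m, rfl⟩ := h2
      have hm : m ≠ 1 := by omega
      have hm0 : m ≠ 0 := by
        rintro rfl
        have := Nat.card_pos (α := M)
        omega
      obtain ⟨q, hq, hqm⟩ := Nat.exists_prime_and_dvd hm
      haveI := Fact.mk hq
      obtain ⟨x, hx⟩ := exists_prime_orderOf_dvd_card' (G := M) q (hk ▸ (hqm.mul_left 2))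
      have hcard : Nat.card (M ⧸ Subgroup.zpowers x) * q = 2 * m := by
        rw [← hk, Subgroup.card_eq_card_quotient_mul_card_subgroup (Subgroup.zpowers x),
          Nat.card_zpowers, hx]
      obtain ⟨m', rfl⟩ := hqm
      have hc2 : Nat.card (M ⧸ Subgroup.zpowers x) = 2 * m' := by
        have : Nat.card (M ⧸ Subgroup.zpowers x) * q = (2 * m') * q := by rw [hcard]; ring
        exact Nat.eq_of_mul_eq_mul_right hq.pos this
      have hm'0 : 0 < m' := by
        rcases Nat.eq_zero_or_pos m' with h | h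
        · subst h; simp at hm0
        · exact h
      obtain ⟨N, hN⟩ := ih (2 * m') (by nlinarith [hq.two_le]) (M ⧸ Subgroup.zpowers x) hc2 ⟨m', rfl⟩
      exact ⟨N.comap (QuotientGroup.mk' (Subgroup.zpowers x)), by
        rw [Subgroup.index_comap_of_surjective _ (QuotientGroup.mk'_surjective _), hN]⟩

theorem exists_index_two (M : Type u) [CommGroup M] [Finite M] (h : 2 ∣ Nat.card M) :
    ∃ N : Subgroup M, N.index = 2 := exists_index_two_aux _ M rfl h

theorem exists_double_cover (G : Type u) [Group G] [Finite G] {X : Type v} [Group X] (ξ : X →* G)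
    (hsurj : Function.Surjective ξ) (hξ : ξ.ker ≤ Subgroup.center X) (w : X) (hw1 : w ∈ ξ.ker)
    (hw2 : w ∈ commutator X) (hw : orderOf w = 2) :
    ∃ (Γ : Type u) (_ : Group Γ) (_ : Finite Γ) (π : Γ →* G) (z : Γ), Function.Surjective π ∧
      z ∈ Subgroup.center Γ ∧ orderOf z = 2 ∧ z ∈ commutator Γ ∧ π.ker = Subgroup.zpowers z := by
  obtain ⟨f, hf⟩ := exists_surj_schurM G ξ hsurj hξ
  have hfin : Finite ↥(ξ.ker ⊓ commutator X) := Finite.of_surjective f hf
  have h2 : 2 ∣ Nat.card (schurM G) := by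
    have h3 : orderOf (⟨w, hw1, hw2⟩ : ↥(ξ.ker ⊓ commutator X)) = 2 := by
      rw [← hw, ← Subgroup.orderOf_coe]
    rw [← h3]
    exact (orderOf_dvd_natCard _).trans (Subgroup.card_dvd_of_surjective f hf)
  obtain ⟨N, hN⟩ := exists_index_two (schurM G) h2
  obtain ⟨S, hSn, -, hfinC, σ, -, hstem, ⟨eM⟩⟩ :=
    exists_cover G (fcProj G).ker le_rfl (sup_eq_left.mpr inf_le_left)
  obtain ⟨N', hN'⟩ : ∃ N' : Subgroup σ.ker, N'.index = 2 :=
    ⟨N.comap eM.toMonoidHom, by
      rw [Subgroup.index_comap_of_surjective _ eM.surjective, hN]⟩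
  obtain ⟨M₀, hM₀⟩ : ∃ M₀ : Subgroup (FreeCentral G ⧸ S), M₀ = N'.map σ.ker.subtype := ⟨_, rfl⟩
  have hmem : ∀ (c : FreeCentral G ⧸ S) (hc : c ∈ σ.ker), c ∈ M₀ ↔ (⟨c, hc⟩ : σ.ker) ∈ N' := by
    intro c hc
    rw [hM₀, Subgroup.mem_map]
    constructor
    · rintro ⟨y, hy, rfl⟩
      exact hy
    · intro h
      exact ⟨_, h, rfl⟩
  have hM₀ker : M₀ ≤ σ.ker := by
    rw [hM₀]
    rintro _ ⟨y, -, rfl⟩
    exact y.2
  have hM₀n : M₀.Normal := normal_of_le_center (hM₀ker.trans hstem.2.1)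
  obtain ⟨m, hm⟩ : ∃ m : σ.ker, m ∉ N' := by
    by_contra hcon
    push Not at hcon
    have : N' = ⊤ := by
      rw [eq_top_iff]
      intro x _
      exact hcon x
    rw [this, Subgroup.index_top] at hN'
    omega
  obtain ⟨m, hmker⟩ := m
  have hmM₀ : m ∉ M₀ := fun h => hm ((hmem m hmker).mp h)
  refine ⟨(FreeCentral G ⧸ S) ⧸ M₀, inferInstance, inferInstance,
    QuotientGroup.lift M₀ σ (fun x hx => hM₀ker hx), QuotientGroup.mk m, ?_, ?_, ?_, ?_, ?_⟩
  · intro g
    obtain ⟨c, rfl⟩ := hstem.1 g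
    exact ⟨QuotientGroup.mk c, rfl⟩
  · rw [Subgroup.mem_center_iff]
    intro g
    obtain ⟨c, rfl⟩ := QuotientGroup.mk_surjective g
    rw [← QuotientGroup.mk_mul, ← QuotientGroup.mk_mul,
      Subgroup.mem_center_iff.mp (hstem.2.1 hmker) c]
  · apply orderOf_eq_prime
    · rw [← QuotientGroup.mk_pow, QuotientGroup.eq_one_iff, hmem _ (pow_mem hmker 2)]
      exact Subgroup.sq_mem_of_index_two hN' ⟨m, hmker⟩
    · rw [Ne, QuotientGroup.eq_one_iff]
      exact hmM₀
  · exact map_commutator_le (QuotientGroup.mk' M₀) ⟨m, hstem.2.2 hmker, rfl⟩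
  · apply le_antisymm
    · intro x hx
      obtain ⟨c, rfl⟩ := QuotientGroup.mk_surjective x
      have hc : c ∈ σ.ker := hx
      by_cases hcN : (⟨c, hc⟩ : σ.ker) ∈ N'
      · have : (QuotientGroup.mk c : (FreeCentral G ⧸ S) ⧸ M₀) = 1 := by
          rw [QuotientGroup.eq_one_iff, hmem c hc]
          exact hcN
        rw [this]
        exact one_mem _
      · have h1 : (⟨c, hc⟩ : σ.ker) * ⟨m, hmker⟩ ∈ N' := by
          rw [Subgroup.mul_mem_iff_of_index_two hN']
          exact ⟨fun h => absurd h hcN, fun h => absurd h hm⟩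
        have h2 : (QuotientGroup.mk c : (FreeCentral G ⧸ S) ⧸ M₀) * QuotientGroup.mk m = 1 := by
          rw [← QuotientGroup.mk_mul, QuotientGroup.eq_one_iff, hmem _ (mul_mem hc hmker)]
          exact h1
        rw [eq_inv_of_mul_eq_one_left h2]
        exact inv_mem (Subgroup.mem_zpowers _)
    · rw [Subgroup.zpowers_le]
      exact hmker

end Cfsg.Agent.Lib.Helper66
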