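import Mathlib

/-!
A finite group is generated by its elements of prime power order.
-/

set_option autoImplicit false

namespace Cfsg.Agent.Lib.Helper66

theorem eq_top_of_sylow_le {G : Type*} [Group G] [Finite G] (H : Subgroup G)
    (h : ∀ q : ℕ, ∀ _ : Fact q.Prime, ∃ Q : Sylow q G, (Q : Subgroup G) ≤ H) : H = ⊤ := by
  apply Subgroup.eq_top_of_le_card
  apply Nat.le_of_dvd Nat.card_pos
  rw [← Nat.factorization_prime_le_iff_dvd Nat.card_pos.ne' Nat.card_pos.ne']
  intro q hq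
  obtain ⟨Q, hQ⟩ := h q ⟨hq⟩
  have := Fact.mk hq
  have h1 := Subgroup.card_dvd_of_le hQ
  rw [Q.card_eq_multiplicity] at h1
  exact (Nat.Prime.pow_dvd_iff_le_factorization hq Nat.card_pos.ne').mp h1

theorem eq_top_of_prime_power_mem {G : Type*} [Group G] [Finite G] (H : Subgroup G)
    (h : ∀ (y : G) (q b : ℕ), q.Prime → orderOf y = q ^ b → y ∈ H) : H = ⊤ := by
  apply eq_top_of_sylow_le
  intro q hq
  refine ⟨default, ?_⟩
  intro y hy
  obtain ⟨b, hb⟩ := (IsPGroup.iff_orderOf.mp (default : Sylow q G).isPGroup') ⟨y, hy⟩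
  exact h y q b hq.out (by rw [← hb, Subgroup.orderOf_mk])

theorem mem_of_prime_power_mem {G : Type*} [Group G] [Finite G] (H : Subgroup G) (g : G)
    (h : ∀ y ∈ Subgroup.zpowers g, ∀ (q b : ℕ), q.Prime → orderOf y = q ^ b → y ∈ H) : g ∈ H := by
  have h1 : H.subgroupOf (Subgroup.zpowers g) = ⊤ := by
    apply eq_top_of_prime_power_mem
    intro y q b hq hy
    rw [Subgroup.mem_subgroupOf]
    exact h y y.2 q b hq (by rw [← hy, Subgroup.orderOf_coe])
  rw [Subgroup.subgroupOf_eq_top] at h1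
  exact h1 (Subgroup.mem_zpowers g)

end Cfsg.Agent.Lib.Helper66
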