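import Mathlib

/-!
TI Sylow subgroups: the "any two distinct Sylow subgroups meet trivially" formulation.
-/

set_option autoImplicit false
open scoped Pointwise

namespace Cfsg.Agent.Lib.Helper66

theorem ti_iff {G : Type*} [Group G] [Finite G] (p : ℕ) [Fact p.Prime] (P : Sylow p G) :
    (∀ g : G, g ∉ Subgroup.normalizer ((P : Subgroup G) : Set G) →
      (P : Subgroup G) ⊓ (MulAut.conj g • (P : Subgroup G)) = ⊥) ↔
    ∀ P₁ P₂ : Sylow p G, P₁ ≠ P₂ → (P₁ : Subgroup G) ⊓ (P₂ : Subgroup G) = ⊥ := by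
  constructor
  · intro h P₁ P₂ hne
    obtain ⟨a, rfl⟩ := MulAction.exists_smul_eq G P P₁
    obtain ⟨b, rfl⟩ := MulAction.exists_smul_eq G P P₂
    have hab : a⁻¹ * b ∉ Subgroup.normalizer ((P : Subgroup G) : Set G) := by
      intro hmem
      apply hne
      have := Sylow.smul_eq_iff_mem_normalizer.mpr hmem
      rw [mul_smul, inv_smul_eq_iff] at this
      exact this.symm
    have h1 := h _ hab
    have h2 : ((a • P : Sylow p G) : Subgroup G) ⊓ ((b • P : Sylow p G) : Subgroup G) =
        MulAut.conj a • ((P : Subgroup G) ⊓ (MulAut.conj (a⁻¹ * b) • (P : Subgroup G))) := by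
      rw [Subgroup.smul_inf, smul_smul, ← map_mul, mul_inv_cancel_left]
      rfl
    rw [h2, h1, Subgroup.smul_bot]
  · intro h g hg
    have hne : P ≠ g • P := by
      intro heq
      exact hg (Sylow.smul_eq_iff_mem_normalizer.mp heq.symm)
    exact h P (g • P) hne

end Cfsg.Agent.Lib.Helper66
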